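import Cfsg.Agent.H71.MtRel

/-! S4351, P3: the dimension is four -/

set_option autoImplicit false
set_option linter.unusedVariables false
set_option linter.unusedSectionVars false
set_option linter.style.haveILetI false

namespace Cfsg.Agent.H5.MtP3

open Cfsg.Agent.H71.Mt Module

universe v

theorem step {F V : Type*} [Field F] [AddCommGroup V] [Module F V] [Module.Finite F V] (f : V →ₗ[F] V)
    (p : Submodule F V) (hk : LinearMap.ker f ≤ p) :
    finrank F (p.map f) + finrank F (LinearMap.ker f) = finrank F p := by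
  have h := LinearMap.finrank_range_add_finrank_ker (f.domRestrict p)
  rw [LinearMap.range_domRestrict, LinearMap.ker_domRestrict, (Submodule.comapSubtypeEquivOfLe hk).finrank_eq] at h
  exact h

variable {X : Type*} [Group X] {F : Type} [Field F] [Fintype F] {θ : F ≃+* F} {S E K : Subgroup X} {w s0 : X}
  {a b κ : X → F}

theorem fix_K (D : SzD θ S E K w s0 a b κ) {V : Type v} [AddCommGroup V] [Module F V]
    (ρ : Representation F X V) {u : V} (hus : ∀ s ∈ S, ρ s u = u)
    (hu1 : ∀ v : V, (∀ s ∈ S, ρ s v = v) → ∃ c : F, v = c • u) {k : X} (hk : k ∈ K) : ∃ c : F, ρ k u = c • u := by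
  have mulρ : ∀ g h v, ρ (g * h) v = ρ g (ρ h v) := fun g h v => by rw [map_mul]; rfl
  apply hu1
  intro s hs
  have h1 : k⁻¹ * s * k ∈ S := by
    have := D.KS k⁻¹ (K.inv_mem hk) s hs
    rwa [inv_inv] at this
  have h2 : s * k = k * (k⁻¹ * s * k) := by group
  rw [← mulρ, h2, mulρ, hus _ h1]

theorem span_top (D : SzD θ S E K w s0 a b κ) {V : Type v} [AddCommGroup V] [Module F V]
    (ρ : Representation F X V) (hi : IrrF ρ) {u : V} (hu : u ≠ 0) (hus : ∀ s ∈ S, ρ s u = u)
    (hu1 : ∀ v : V, (∀ s ∈ S, ρ s v = v) → ∃ c : F, v = c • u) {N : Submodule F V} (h1 : u ∈ N)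
    (h2 : ∀ s ∈ S, ρ s (ρ w u) ∈ N) (v : V) : v ∈ N := by
  have mulρ : ∀ g h v, ρ (g * h) v = ρ g (ρ h v) := fun g h v => by rw [map_mul]; rfl
  have h3 : ∀ g : X, ρ g u ∈ N := by
    intro g
    rcases D.bruhat g with ⟨s, hs, k, hk, rfl⟩ | ⟨s, hs, k, hk, r, hr, rfl⟩
    · obtain ⟨c, hc⟩ := fix_K D ρ hus hu1 hk
      rw [mulρ, hc, map_smul, hus s hs]
      exact N.smul_mem c h1
    · obtain ⟨c, hc⟩ := fix_K D ρ hus hu1 (K.inv_mem hk)
      have h4 : s * k * w * r = s * (w * (k⁻¹ * r)) := by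
        have h5 := D.wK k⁻¹ (K.inv_mem hk)
        rw [inv_inv] at h5
        have hwi : w⁻¹ = w := inv_eq_of_mul_eq_one_left D.ww
        calc s * k * w * r = s * (w * k⁻¹ * w) * w * r := by rw [h5]
          _ = s * (w * (k⁻¹ * ((w * w) * r))) := by group
          _ = s * (w * (k⁻¹ * r)) := by rw [D.ww, one_mul]
      rw [h4, mulρ, mulρ, mulρ, hus r hr, hc, map_smul, map_smul]
      exact N.smul_mem c (h2 s hs)
  let W : Submodule F V := Submodule.span F (Set.range fun g : X => ρ g u)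
  have hWN : W ≤ N := by
    rw [Submodule.span_le]
    rintro _ ⟨g, rfl⟩
    exact h3 g
  have hWi : ∀ g : X, ∀ v ∈ W, ρ g v ∈ W := by
    intro g v hv
    induction hv using Submodule.span_induction with
    | mem x hx =>
      obtain ⟨h, rfl⟩ := hx
      apply Submodule.subset_span
      exact ⟨g * h, mulρ g h u⟩
    | zero => rw [map_zero]; exact W.zero_mem
    | add x y _ _ hx hy => rw [map_add]; exact W.add_mem hx hy
    | smul c x _ hx => rw [map_smul]; exact W.smul_mem c hx
  have huW : u ∈ W := Submodule.subset_span ⟨1, by simp⟩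
  rcases hi.2 W hWi with h | h
  · rw [h, Submodule.mem_bot] at huW
    exact absurd huW hu
  · apply hWN
    rw [h]; trivial

/-- [P3] -/
theorem dim_four (D : SzD θ S E K w s0 a b κ) {V : Type v} [AddCommGroup V] [Module F V] [Finite V]
    (ρ : Representation F X V) (hf : FpfF ρ) (hi : IrrF ρ) {u : V} (hu : u ≠ 0) (hus : ∀ s ∈ S, ρ s u = u)
    (hu1 : ∀ v : V, (∀ s ∈ S, ρ s v = v) → ∃ c : F, v = c • u)
    (hq1 : ∀ t ∈ E, t ≠ 1 → ∀ v : V, ρ t v = v → ∃ v' : V, v = ρ t v' + v')
    (hq2 : ∀ t ∈ E, ∀ e ∈ E, ∀ v : V, ρ e (ρ t v + v) = ρ t v + v) :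
    Module.finrank F V = 4 ∧
    (∀ x ∈ S, ∀ y : V, (∀ t ∈ E, ρ t y = y) → ∃ c : F, ρ x y = y + c • u) ∧
    (∀ x ∈ S, x ∉ E → ∀ v : V, ρ x v = v → ∃ c : F, v = c • u) ∧
    ∃ y : V, (∀ t ∈ E, ρ t y = y) ∧ (∀ c : F, y ≠ c • u) ∧
      ∀ v : V, (∀ t ∈ E, ρ t v = v) → ∃ c d : F, v = c • u + d • y := by
  haveI := D.char
  haveI : Module.Finite F V := Module.Finite.of_finite
  have two : ∀ v : V, v + v = 0 := fun v => two_zero (F := F) v
  have mulρ : ∀ g h v, ρ (g * h) v = ρ g (ρ h v) := fun g h v => by rw [map_mul]; rfl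
  have oneρ : ∀ v, ρ 1 v = v := fun v => by rw [map_one]; rfl
  have ht0 : s0 * s0 ∈ E := D.Ssq s0 D.s0S
  have ht01 : s0 * s0 ≠ 1 := by
    intro h
    have h1 := D.b_sq s0 D.s0S
    rw [(D.b_zero _ ht0).2 h] at h1
    rcases mul_eq_zero.1 h1.symm with h2 | h2
    · exact D.s0a h2
    · exact D.s0a ((map_eq_zero θ).1 h2)
  -- fixed vectors of one involution
  have hY : ∀ t ∈ E, t ≠ 1 → ∀ v, ρ t v = v → ∀ e ∈ E, ρ e v = v := by
    intro t ht ht1 v hv e he
    obtain ⟨v', rfl⟩ := hq1 t ht ht1 v hv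
    exact hq2 t ht e he v'
  -- (1)
  have H5 : ∀ x ∈ S, ∀ y : V, (∀ t ∈ E, ρ t y = y) → ∃ c : F, ρ x y = y + c • u := by
    intro x hx y hy
    by_cases hxE : x ∈ E
    · exact ⟨0, by rw [hy x hxE, zero_smul, add_zero]⟩
    obtain ⟨k, hk, e, he, hxe⟩ := D.exists_conj_s0 hx hxE
    obtain ⟨s, hs⟩ : ∃ s, s = k * s0 * k⁻¹ := ⟨_, rfl⟩
    have hsS : s ∈ S := by rw [hs]; exact D.KS k hk s0 D.s0S
    have hssE : s * s ∈ E := D.Ssq s hsS
    have hss1 : s * s ≠ 1 := by
      intro h
      apply ht01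
      have : s0 * s0 = k⁻¹ * (s * s) * k := by rw [hs]; group
      rw [this, h]; group
    obtain ⟨v', hv'⟩ := hq1 (s * s) hssE hss1 y (hy _ hssE)
    let N : Submodule F V :=
      { carrier := {v | ∃ c : F, ρ s (ρ (s * s) v + v) + (ρ (s * s) v + v) = c • u}
        add_mem' := by
          rintro v v' ⟨c, hc⟩ ⟨c', hc'⟩
          refine ⟨c + c', ?_⟩
          rw [add_smul, ← hc, ← hc']
          simp only [map_add]; abel
        zero_mem' := ⟨0, by simp⟩
        smul_mem' := by
          rintro r v ⟨c, hc⟩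
          refine ⟨r * c, ?_⟩
          rw [← smul_smul, ← hc]
          simp only [map_add, map_smul, smul_add] }
    have hN : ∀ v, v ∈ N := by
      apply span_top D ρ hi hu hus hu1
      · refine ⟨0, ?_⟩
        rw [hus _ (D.ES hssE), two, map_zero, zero_smul, add_zero]
      · intro r hr
        obtain ⟨c, hc⟩ := fix_K D ρ hus hu1 (K.mul_mem hk hk)
        refine ⟨c, ?_⟩
        have h1 : ρ (s * s) (ρ r (ρ w u)) + ρ r (ρ w u) = ρ r (ρ (s * s) (ρ w u) + ρ w u) := by
          have e1 : ρ (s * s) (ρ r (ρ w u)) = ρ r (ρ (s * s) (ρ w u)) := by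
            rw [← mulρ (s * s) r, D.Ecen _ hssE r hr, mulρ]
          rw [map_add, e1]
        have he' : s⁻¹ * r⁻¹ * s * r ∈ E := by
          have hm : s⁻¹ * r⁻¹ * s * r ∈ S :=
            S.mul_mem (S.mul_mem (S.mul_mem (S.inv_mem hsS) (S.inv_mem hr)) hsS) hr
          rw [← D.a_zero _ hm]
          have e1 := D.a_mul _ (S.mul_mem hr hsS) _ hm
          have e2 : r * s * (s⁻¹ * r⁻¹ * s * r) = s * r := by group
          rw [e2, D.a_mul s hsS r hr, D.a_mul r hr s hsS, add_comm (a r) (a s)] at e1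
          exact left_eq_add.1 e1
        have h2 : s * r = r * s * (s⁻¹ * r⁻¹ * s * r) := by group
        have h3 : ρ s (ρ r (ρ (s * s) (ρ w u) + ρ w u)) = ρ r (ρ s (ρ (s * s) (ρ w u) + ρ w u)) := by
          rw [← mulρ, h2, mulρ, mulρ, hq2 _ hssE _ he']
        rw [h1, h3, ← map_add]
        have h4 := D.relF_conj ρ hf u hus hk hs
        have h5 : ρ s (ρ (s * s) (ρ w u) + ρ w u) + (ρ (s * s) (ρ w u) + ρ w u) =
            ρ w u + ρ s (ρ w u) + ρ (s * s) (ρ w u) + ρ (s * s * s) (ρ w u) := by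
          rw [map_add, ← mulρ s (s * s), ← mul_assoc]; abel
        rw [h5, h4, hc, map_smul, hus r hr]
    obtain ⟨c, hc⟩ := hN v'
    rw [← hv'] at hc
    refine ⟨c, ?_⟩
    rw [hxe, ← hs, mulρ, hy e he, ← hc, add_comm (ρ s y) y, ← add_assoc, two, zero_add]
  -- (2)
  let n : V →ₗ[F] V := ρ s0 + LinearMap.id
  have hn : ∀ v, n v = ρ s0 v + v := fun v => rfl
  have hnn : ∀ v, n (n v) = ρ (s0 * s0) v + v := by
    intro v
    rw [hn, hn, map_add, mulρ]
    have := two (ρ s0 v)
    calc ρ s0 (ρ s0 v) + ρ s0 v + (ρ s0 v + v) = ρ s0 (ρ s0 v) + v + (ρ s0 v + ρ s0 v) := by abel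
      _ = _ := by rw [this, add_zero]
  have hn4 : ∀ v, n (n (n (n v))) = 0 := by
    intro v
    rw [hnn, hnn, map_add, ← mulρ, D.Esq _ ht0, oneρ]
    have := two (ρ (s0 * s0) v)
    calc v + ρ (s0 * s0) v + (ρ (s0 * s0) v + v) = (v + v) + (ρ (s0 * s0) v + ρ (s0 * s0) v) := by abel
      _ = 0 := by rw [this, two, add_zero]
  have hker : ∀ v, v ∈ LinearMap.ker n ↔ ρ s0 v = v := by
    intro v
    rw [LinearMap.mem_ker, hn]
    constructor
    · intro h
      calc ρ s0 v = (ρ s0 v + v) + v := by rw [add_assoc, two, add_zero]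
        _ = v := by rw [h, zero_add]
    · intro h; rw [h, two]
  have hk3 : LinearMap.ker n ≤ (((⊤ : Submodule F V).map n).map n).map n := by
    intro v hv
    refine ⟨n (n (ρ w v)), ⟨n (ρ w v), ⟨ρ w v, trivial, rfl⟩, rfl⟩, ?_⟩
    have h1 := D.relF ρ hf v ((hker v).1 hv)
    rw [hnn, hn, map_add, ← mulρ (s0 * s0) s0]
    refine Eq.trans ?_ h1
    abel
  have m1 : ((⊤ : Submodule F V).map n).map n ≤ (⊤ : Submodule F V).map n := Submodule.map_mono le_top
  have m2 : (((⊤ : Submodule F V).map n).map n).map n ≤ ((⊤ : Submodule F V).map n).map n := Submodule.map_mono m1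
  have e0 := step n ⊤ le_top
  have e1 := step n _ (hk3.trans (m2.trans m1))
  have e2 := step n _ (hk3.trans m2)
  have e3 := step n _ hk3
  have e4 : finrank F (((((⊤ : Submodule F V).map n).map n).map n).map n) = 0 := by
    have : ((((⊤ : Submodule F V).map n).map n).map n).map n = ⊥ := by
      rw [eq_bot_iff]
      rintro _ ⟨_, ⟨_, ⟨_, ⟨v, -, rfl⟩, rfl⟩, rfl⟩, rfl⟩
      exact hn4 v
    rw [this]; exact finrank_bot F V
  rw [finrank_top] at e0
  -- (3)
  let Y : Submodule F V :=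
    { carrier := {v | ∀ t ∈ E, ρ t v = v}
      add_mem' := fun {v v'} h h' t ht => by rw [map_add, h t ht, h' t ht]
      zero_mem' := fun t _ => map_zero _
      smul_mem' := fun r v h t ht => by rw [map_smul, h t ht] }
  have memY : ∀ v, v ∈ Y ↔ ∀ t ∈ E, ρ t v = v := fun v => Iff.rfl
  have huY : u ∈ Y := fun t ht => hus t (D.ES ht)
  let n0 : V →ₗ[F] V := ρ (s0 * s0) + LinearMap.id
  have hn0 : ∀ v, n0 v = ρ (s0 * s0) v + v := fun v => rfl
  have hk0 : LinearMap.ker n0 = Y := by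
    ext v
    rw [LinearMap.mem_ker, hn0, memY]
    constructor
    · intro h
      apply hY _ ht0 ht01
      calc ρ (s0 * s0) v = (ρ (s0 * s0) v + v) + v := by rw [add_assoc, two, add_zero]
        _ = v := by rw [h, zero_add]
    · intro h; rw [h _ ht0, two]
  have hr0 : LinearMap.range n0 = Y := by
    ext v
    rw [LinearMap.mem_range, memY]
    constructor
    · rintro ⟨v', rfl⟩ t ht
      exact hq2 _ ht0 t ht v'
    · intro h
      obtain ⟨v', hv'⟩ := hq1 _ ht0 ht01 v (h _ ht0)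
      exact ⟨v', hv'.symm⟩
  have f0 := LinearMap.finrank_range_add_finrank_ker n0
  rw [hk0, hr0] at f0
  have hkY : LinearMap.ker n ≤ Y := by
    intro v hv
    have h1 := (hker v).1 hv
    exact hY _ ht0 ht01 v (by rw [mulρ, h1, h1])
  have g0 := step n Y hkY
  have hmapY : finrank F (Y.map n) ≤ 1 := by
    have h1 : Y.map n ≤ Submodule.span F {u} := by
      rintro _ ⟨y, hy, rfl⟩
      obtain ⟨c, hc⟩ := H5 s0 D.s0S y hy
      rw [hn, hc, Submodule.mem_span_singleton]
      refine ⟨c, ?_⟩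
      rw [add_comm y, add_assoc, two, add_zero]
    have h2 := Submodule.finrank_mono h1
    rw [finrank_span_singleton hu] at h2
    exact h2
  have hku : u ∈ LinearMap.ker n := (hker u).2 (hus s0 D.s0S)
  have hspan1 : Submodule.span F {u} ≤ LinearMap.ker n := by
    rw [Submodule.span_le]; rintro _ rfl; exact hku
  have hk1 : 1 ≤ finrank F (LinearMap.ker n) := by
    have h2 := Submodule.finrank_mono hspan1
    rw [finrank_span_singleton hu] at h2
    exact h2
  have hkeq : finrank F (LinearMap.ker n) = 1 := by omega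
  have hYeq : finrank F Y = 2 := by omega
  have hkspan : Submodule.span F {u} = LinearMap.ker n := by
    apply Submodule.eq_of_le_of_finrank_le hspan1
    rw [hkeq, finrank_span_singleton hu]
  refine ⟨by omega, H5, ?_, ?_⟩
  · intro x hx hxE v hv
    obtain ⟨k, hk, e, he, hxe⟩ := D.exists_conj_s0 hx hxE
    have hxx : x * x = k * (s0 * s0) * k⁻¹ := by
      have h1 : k * s0 * k⁻¹ ∈ S := D.KS k hk s0 D.s0S
      have h2 := D.Ecen e he _ h1
      calc x * x = (k * s0 * k⁻¹) * (e * (k * s0 * k⁻¹)) * e := by rw [hxe]; group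
        _ = (k * s0 * k⁻¹) * ((k * s0 * k⁻¹) * e) * e := by rw [h2]
        _ = k * (s0 * s0) * k⁻¹ * (e * e) := by group
        _ = _ := by rw [D.Esq e he, mul_one]
    have hxx1 : x * x ≠ 1 := by
      intro h
      apply ht01
      have : s0 * s0 = k⁻¹ * (x * x) * k := by rw [hxx]; group
      rw [this, h]; group
    have hvY := hY (x * x) (D.Ssq x hx) hxx1 v (by rw [mulρ, hv, hv])
    have h1 : ρ (k * s0 * k⁻¹) v = v := by
      have h2 := hv
      rw [hxe, mulρ, hvY e he] at h2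
      exact h2
    have h3 : ρ s0 (ρ k⁻¹ v) = ρ k⁻¹ v := by
      have h4 : s0 * k⁻¹ = k⁻¹ * (k * s0 * k⁻¹) := by group
      rw [← mulρ, h4, mulρ, h1]
    have h4 := (hker _).2 h3
    rw [← hkspan, Submodule.mem_span_singleton] at h4
    obtain ⟨c, hc⟩ := h4
    obtain ⟨d, hd⟩ := fix_K D ρ hus hu1 hk
    refine ⟨c * d, ?_⟩
    calc v = ρ k (ρ k⁻¹ v) := by rw [← mulρ, mul_inv_cancel, oneρ]
      _ = (c * d) • u := by rw [← hc, map_smul, hd, smul_smul]
  · have hlt : Submodule.span F {u} < Y := by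
      apply lt_of_le_of_ne
      · rw [Submodule.span_le]; rintro _ rfl; exact huY
      · intro h
        have := finrank_span_singleton (K := F) hu
        rw [h, hYeq] at this
        omega
    obtain ⟨y, hyY, hyu⟩ := SetLike.exists_of_lt hlt
    refine ⟨y, hyY, ?_, ?_⟩
    · intro c hc
      apply hyu
      rw [Submodule.mem_span_singleton]; exact ⟨c, hc.symm⟩
    · intro v hv
      have h1 : Submodule.span F {u, y} = Y := by
        have h2 : Submodule.span F {u, y} ≤ Y := by
          rw [Submodule.span_le]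
          rintro _ (rfl | rfl)
          · exact huY
          · exact hyY
        apply Submodule.eq_of_le_of_finrank_le h2
        have h3 : Submodule.span F {u} < Submodule.span F {u, y} := by
          apply lt_of_le_of_ne
          · exact Submodule.span_mono (by simp)
          · intro h
            apply hyu
            rw [h]
            exact Submodule.subset_span (by simp)
        have h4 := Submodule.finrank_lt_finrank_of_lt h3
        rw [finrank_span_singleton hu] at h4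
        omega
      have h2 : v ∈ Submodule.span F {u, y} := by rw [h1]; exact hv
      obtain ⟨c, d, hcd⟩ := Submodule.mem_span_pair.1 h2
      exact ⟨c, d, hcd.symm⟩

end Cfsg.Agent.H5.MtP3
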