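import Cfsg.Agent.H71.MtRel
import Cfsg.Agent.Suz2.FieldA

/-! S4351, P4b: normalisation of the coordinates -/

set_option autoImplicit false
set_option linter.unusedVariables false
set_option linter.unusedSectionVars false

namespace Cfsg.Agent.H5.MtP4b

open Cfsg.Agent.H71.Mt Cfsg.Agent.Suz2

universe v

theorem aut_of {F : Type*} [Field F] [Finite F] (φ : F →+ F) (h1 : φ 1 ≠ 0)
    (hm : ∀ x : F, x ≠ 0 → ∃ c : F, ∀ y, φ (x * y) = c * φ y) : ∃ σ : F ≃+* F, ∀ x, φ x = φ 1 * σ x := by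
  obtain ⟨σ, hσ⟩ := mk_aut (fun x => φ x / φ 1) (fun x y => by rw [map_add, add_div]) (fun x y => by
    rcases eq_or_ne x 0 with rfl | hx
    · simp
    · obtain ⟨c, hc⟩ := hm x hx
      have h2 := hc 1
      rw [mul_one] at h2
      rw [hc y, h2]
      field_simp) (div_self h1)
  exact ⟨σ, fun x => by rw [hσ]; field_simp⟩

/-- automorphisms whose product is additive agree (characteristic two) -/
theorem eq_of_add {F : Type*} [Field F] [CharP F 2] {α δ : F ≃+* F}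
    (h : ∀ x y, α (x + y) * δ (x + y) = α x * δ x + α y * δ y) : α = δ := by
  ext x
  have h1 := h x 1
  rw [map_add, map_add, map_one, map_one] at h1
  have h2 : α x + δ x = 0 := by linear_combination h1
  have h3 : δ x + δ x = 0 := two_eq _
  linear_combination h2 - h3

variable {X : Type*} [Group X] {F : Type} [Field F] [Fintype F] {θ : F ≃+* F} {S E K : Subgroup X} {w s0 : X}
  {a b κ : X → F}

theorem pow_ne (hc : 8 ≤ Fintype.card F) {n : ℕ} (hn : 0 < n) (hn7 : n < 7) : ¬ ∀ x : F, x ^ (n + 1) = x := by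
  intro h
  have h1 : ∀ x : Fˣ, x ^ n = 1 := by
    intro x
    apply Units.ext
    have h2 := h x
    rw [pow_succ] at h2
    have h3 : (x : F) ≠ 0 := x.ne_zero
    push_cast
    exact mul_right_cancel₀ h3 (by rw [h2, one_mul])
  have h4 := (FiniteField.forall_pow_eq_one_iff F n).1 h1
  have := Nat.le_of_dvd hn h4
  omega

theorem θ_ne (D : SzD θ S E K w s0 a b κ) {β : F ≃+* F} : β ≠ θ.trans β := by
  intro h
  apply pow_ne D.card (n := 1) (by norm_num) (by norm_num)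
  intro x
  have h1 : ∀ y, θ y = y := by
    intro y
    apply β.injective
    exact (RingEquiv.congr_fun h y).symm
  rw [pow_succ, pow_one, ← D.theta, h1, h1]

theorem normalise (D : SzD θ S E K w s0 a b κ) {V : Type v} [AddCommGroup V] [Module F V]
    (ρ : Representation F X V) {u v2 v3 : V} {A A' Dd B B' C : F →+ F} {lam mu : X → F}
    (hus : ∀ s ∈ S, ρ s u = u)
    (hspan : ∀ v, ∃ x1 x2 x3 x4 : F, v = x1 • u + x2 • v2 + x3 • v3 + x4 • ρ w u)
    (hind : ∀ x1 x2 x3 x4 : F, x1 • u + x2 • v2 + x3 • v3 + x4 • ρ w u = 0 → x1 = 0 ∧ x2 = 0 ∧ x3 = 0 ∧ x4 = 0)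
    (hA : ∀ s ∈ S, ρ s v2 = v2 + A (a s) • u)
    (hD : ∀ s ∈ S, ∃ e : F, ρ s v3 = v3 + Dd (a s) • v2 + e • u)
    (hA' : ∀ s ∈ S, ∃ f g : F, ρ s (ρ w u) = ρ w u + A' (a s) • v3 + f • v2 + g • u)
    (hB : ∀ t ∈ E, ρ t v3 = v3 + B (b t) • u)
    (hB' : ∀ t ∈ E, ρ t (ρ w u) = ρ w u + B' (b t) • v2 + C (b t) • u)
    (A0 : ∀ x ≠ 0, A x ≠ 0) (A'0 : ∀ x ≠ 0, A' x ≠ 0) (D0 : ∀ x ≠ 0, Dd x ≠ 0) (B0 : ∀ x ≠ 0, B x ≠ 0)
    (B'0 : ∀ x ≠ 0, B' x ≠ 0)
    (hK : ∀ k ∈ K, lam k ≠ 0 ∧ mu k ≠ 0 ∧ ρ k u = lam k • u ∧ ρ k v2 = mu k • v2 ∧ ρ k v3 = (mu k)⁻¹ • v3 ∧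
      ρ k (ρ w u) = (lam k)⁻¹ • ρ w u) :
    ∃ (τ : F ≃+* F) (v1 v2' v3' v4 : V), Nat4 θ S E K w a b κ τ ρ v1 v2' v3' v4 := by
  haveI := D.char
  have h2 : ∀ x : F, x + x = 0 := two_eq
  obtain ⟨v4, hv4⟩ : ∃ v4, v4 = ρ w u := ⟨_, rfl⟩
  rw [← hv4] at hspan hind hA' hB' hK
  choose! e he using hD
  choose! f g hfg using hA'
  have huniq : ∀ x1 x2 x3 x4 y1 y2 y3 y4 : F, x1 • u + x2 • v2 + x3 • v3 + x4 • v4 =
      y1 • u + y2 • v2 + y3 • v3 + y4 • v4 → x1 = y1 ∧ x2 = y2 ∧ x3 = y3 ∧ x4 = y4 := by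
    intro x1 x2 x3 x4 y1 y2 y3 y4 h
    have h' : (x1 - y1) • u + (x2 - y2) • v2 + (x3 - y3) • v3 + (x4 - y4) • v4 = 0 := by
      have : (x1 - y1) • u + (x2 - y2) • v2 + (x3 - y3) • v3 + (x4 - y4) • v4 =
          (x1 • u + x2 • v2 + x3 • v3 + x4 • v4) - (y1 • u + y2 • v2 + y3 • v3 + y4 • v4) := by module
      rw [this, h, sub_self]
    obtain ⟨e1, e2, e3, e4⟩ := hind _ _ _ _ h'
    exact ⟨sub_eq_zero.1 e1, sub_eq_zero.1 e2, sub_eq_zero.1 e3, sub_eq_zero.1 e4⟩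
  have ha0 : ∀ t ∈ E, a t = 0 := fun t ht => (D.a_zero t (D.ES ht)).2 ht
  have ht2 : ∀ t ∈ E, ρ t v2 = v2 := fun t ht => by
    rw [hA t (D.ES ht), ha0 t ht, map_zero, zero_smul, add_zero]
  have mulapp : ∀ (x y : X) (v : V), ρ (x * y) v = ρ x (ρ y v) := fun x y v => by rw [map_mul]; rfl
  -- relations
  have R1 : ∀ s ∈ S, ∀ t ∈ E, A' (a s) * B (b t) = B' (b t) * A (a s) := by
    intro s hs t ht
    have h : ρ t (ρ s v4) = ρ s (ρ t v4) := by rw [← mulapp, ← mulapp, D.Ecen t ht s hs]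
    rw [hfg s hs, hB' t ht] at h
    simp only [map_add, map_smul, hfg s hs, hB' t ht, hB t ht, hus s hs, hus t (D.ES ht), ht2 t ht, hA s hs] at h
    have h' : (C (b t) + A' (a s) * B (b t) + g s) • u + (B' (b t) + f s) • v2 + A' (a s) • v3 + (1 : F) • v4 =
        (g s + B' (b t) * A (a s) + C (b t)) • u + (f s + B' (b t)) • v2 + A' (a s) • v3 + (1 : F) • v4 := by
      calc _ = v4 + B' (b t) • v2 + C (b t) • u + A' (a s) • (v3 + B (b t) • u) + f s • v2 + g s • u := by module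
        _ = _ := h
        _ = _ := by module
    have h3 := (huniq _ _ _ _ _ _ _ _ h').1
    linear_combination h3
  have R2 : ∀ s ∈ S, A' (a s) * Dd (a s) = B' (a s * θ (a s)) ∧
      C (a s * θ (a s)) = A' (a s) * e s + A (a s) * f s := by
    intro s hs
    have h : ρ s (ρ s v4) = ρ (s * s) v4 := (mulapp s s v4).symm
    rw [hfg s hs, hB' _ (D.Ssq s hs), D.b_sq s hs] at h
    simp only [map_add, map_smul, hfg s hs, he s hs, hus s hs, hA s hs] at h
    have h' : (g s + A' (a s) * e s + f s * A (a s) + g s) • u + (f s + A' (a s) * Dd (a s) + f s) • v2 +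
        (A' (a s) + A' (a s)) • v3 + (1 : F) • v4 =
        (C (a s * θ (a s))) • u + (B' (a s * θ (a s))) • v2 + (0 : F) • v3 + (1 : F) • v4 := by
      calc _ = v4 + A' (a s) • v3 + f s • v2 + g s • u + A' (a s) • (v3 + Dd (a s) • v2 + e s • u) +
            f s • (v2 + A (a s) • u) + g s • u := by module
        _ = _ := h
        _ = _ := by module
    obtain ⟨h3, h4, -, -⟩ := huniq _ _ _ _ _ _ _ _ h'
    refine ⟨?_, ?_⟩
    · rw [← h4]; linear_combination -(h2 (f s))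
    · rw [← h3]; linear_combination (h2 (g s))
  have R3 : ∀ s ∈ S, B (a s * θ (a s)) = Dd (a s) * A (a s) := by
    intro s hs
    have h : ρ s (ρ s v3) = ρ (s * s) v3 := (mulapp s s v3).symm
    rw [he s hs, hB _ (D.Ssq s hs), D.b_sq s hs] at h
    simp only [map_add, map_smul, he s hs, hus s hs, hA s hs] at h
    have h' : (e s + Dd (a s) * A (a s) + e s) • u + (Dd (a s) + Dd (a s)) • v2 +
        (1 : F) • v3 + (0 : F) • v4 = (B (a s * θ (a s))) • u + (0 : F) • v2 + (1 : F) • v3 + (0 : F) • v4 := by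
      calc _ = v3 + Dd (a s) • v2 + e s • u + Dd (a s) • (v2 + A (a s) • u) + e s • u := by module
        _ = _ := h
        _ = _ := by module
    have h3 := (huniq _ _ _ _ _ _ _ _ h').1
    rw [← h3]; linear_combination (h2 (e s))
  have e_mul : ∀ s ∈ S, ∀ r ∈ S, e (s * r) = e s + e r + Dd (a r) * A (a s) := by
    intro s hs r hr
    have h : ρ (s * r) v3 = ρ s (ρ r v3) := mulapp s r v3
    rw [he r hr, he _ (mul_mem hs hr)] at h
    simp only [map_add, map_smul, he s hs, hus s hs, hA s hs] at h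
    have h' : (e (s * r)) • u + (Dd (a (s * r))) • v2 + (1 : F) • v3 + (0 : F) • v4 =
        (e s + Dd (a r) * A (a s) + e r) • u + (Dd (a s) + Dd (a r)) • v2 + (1 : F) • v3 + (0 : F) • v4 := by
      calc _ = v3 + Dd (a (s * r)) • v2 + e (s * r) • u := by module
        _ = _ := h
        _ = _ := by module
    have h3 := (huniq _ _ _ _ _ _ _ _ h').1
    rw [h3]; ring
  have f_mul : ∀ s ∈ S, ∀ r ∈ S, f (s * r) = f s + f r + A' (a r) * Dd (a s) := by
    intro s hs r hr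
    have h : ρ (s * r) v4 = ρ s (ρ r v4) := mulapp s r v4
    rw [hfg r hr, hfg _ (mul_mem hs hr)] at h
    simp only [map_add, map_smul, hfg s hs, he s hs, hus s hs, hA s hs] at h
    have h' : (g (s * r)) • u + (f (s * r)) • v2 + (A' (a (s * r))) • v3 + (1 : F) • v4 =
        (g s + A' (a r) * e s + f r * A (a s) + g r) • u + (f s + A' (a r) * Dd (a s) + f r) • v2 +
          (A' (a s) + A' (a r)) • v3 + (1 : F) • v4 := by
      calc _ = v4 + A' (a (s * r)) • v3 + f (s * r) • v2 + g (s * r) • u := by module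
        _ = _ := h
        _ = _ := by module
    have h3 := (huniq _ _ _ _ _ _ _ _ h').2.1
    rw [h3]; ring
  have eE : ∀ t ∈ E, e t = B (b t) := by
    intro t ht
    have h := (he t (D.ES ht)).symm.trans (hB t ht)
    have h' : (e t) • u + (Dd (a t)) • v2 + (1 : F) • v3 + (0 : F) • v4 =
        (B (b t)) • u + (0 : F) • v2 + (1 : F) • v3 + (0 : F) • v4 := by
      calc _ = v3 + Dd (a t) • v2 + e t • u := by module
        _ = _ := h
        _ = _ := by module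
    exact (huniq _ _ _ _ _ _ _ _ h').1
  have fE : ∀ t ∈ E, f t = B' (b t) := by
    intro t ht
    have h := (hfg t (D.ES ht)).symm.trans (hB' t ht)
    have h' : (g t) • u + (f t) • v2 + (A' (a t)) • v3 + (1 : F) • v4 =
        (C (b t)) • u + (B' (b t)) • v2 + (0 : F) • v3 + (1 : F) • v4 := by
      calc _ = v4 + A' (a t) • v3 + f t • v2 + g t • u := by module
        _ = _ := h
        _ = _ := by module
    exact (huniq _ _ _ _ _ _ _ _ h').2.1
  -- torus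
  have KK : ∀ k ∈ K, ∀ s ∈ S, mu k * A (κ k * a s) = lam k * A (a s) ∧ (mu k)⁻¹ * Dd (κ k * a s) = mu k * Dd (a s) ∧
      (mu k)⁻¹ * e (k * s * k⁻¹) = lam k * e s ∧ (lam k)⁻¹ * A' (κ k * a s) = (mu k)⁻¹ * A' (a s) ∧
      (lam k)⁻¹ * f (k * s * k⁻¹) = mu k * f s := by
    intro k hk s hs
    obtain ⟨l0, m0, ku, k2, k3, k4⟩ := hK k hk
    have hs' : k * s * k⁻¹ ∈ S := D.KS k hk s hs
    have hk' : ∀ v, ρ (k * s * k⁻¹) (ρ k v) = ρ k (ρ s v) := by
      intro v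
      rw [← mulapp, ← mulapp, inv_mul_cancel_right]
    refine ⟨?_, ?_⟩
    · have h := hk' v2
      rw [k2, hA s hs] at h
      simp only [map_add, map_smul, hA _ hs', k2, ku, D.Ka k hk s hs] at h
      have h' : (mu k * A (κ k * a s)) • u + (mu k) • v2 + (0 : F) • v3 + (0 : F) • v4 =
          (lam k * A (a s)) • u + (mu k) • v2 + (0 : F) • v3 + (0 : F) • v4 := by
        calc _ = mu k • (v2 + A (κ k * a s) • u) := by module
          _ = _ := h
          _ = _ := by module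
      exact (huniq _ _ _ _ _ _ _ _ h').1
    · have h := hk' v3
      rw [k3, he s hs] at h
      simp only [map_add, map_smul, he _ hs', k2, k3, ku, D.Ka k hk s hs] at h
      have h' : ((mu k)⁻¹ * e (k * s * k⁻¹)) • u + ((mu k)⁻¹ * Dd (κ k * a s)) • v2 + (mu k)⁻¹ • v3 + (0 : F) • v4 =
          (lam k * e s) • u + (mu k * Dd (a s)) • v2 + (mu k)⁻¹ • v3 + (0 : F) • v4 := by
        calc _ = (mu k)⁻¹ • (v3 + Dd (κ k * a s) • v2 + e (k * s * k⁻¹) • u) := by module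
          _ = _ := h
          _ = _ := by module
      obtain ⟨h3, h4, -, -⟩ := huniq _ _ _ _ _ _ _ _ h'
      refine ⟨h4, h3, ?_⟩
      have h := hk' v4
      rw [k4, hfg s hs] at h
      simp only [map_add, map_smul, hfg _ hs', k2, k3, k4, ku, D.Ka k hk s hs] at h
      have h' : ((lam k)⁻¹ * g (k * s * k⁻¹)) • u + ((lam k)⁻¹ * f (k * s * k⁻¹)) • v2 +
          ((lam k)⁻¹ * A' (κ k * a s)) • v3 + (lam k)⁻¹ • v4 =
          (lam k * g s) • u + (mu k * f s) • v2 + ((mu k)⁻¹ * A' (a s)) • v3 + (lam k)⁻¹ • v4 := by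
        calc _ = (lam k)⁻¹ • (v4 + A' (κ k * a s) • v3 + f (k * s * k⁻¹) • v2 + g (k * s * k⁻¹) • u) := by module
          _ = _ := h
          _ = _ := by module
      obtain ⟨-, h5, h6, -⟩ := huniq _ _ _ _ _ _ _ _ h'
      exact ⟨h6, h5⟩
  -- automorphisms
  have hA1 : A 1 ≠ 0 := A0 1 one_ne_zero
  have hA'1 : A' 1 ≠ 0 := A'0 1 one_ne_zero
  have hD1 : Dd 1 ≠ 0 := D0 1 one_ne_zero
  obtain ⟨α, hα⟩ := aut_of A hA1 (fun x hx => by
    obtain ⟨k, hk, rfl⟩ := D.κ_surj x hx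
    obtain ⟨l0, m0, -⟩ := hK k hk
    refine ⟨lam k / mu k, fun y => ?_⟩
    obtain ⟨s, hs, rfl⟩ := D.a_surj y
    have := (KK k hk s hs).1
    field_simp
    linear_combination this)
  obtain ⟨δ, hδ⟩ := aut_of Dd hD1 (fun x hx => by
    obtain ⟨k, hk, rfl⟩ := D.κ_surj x hx
    obtain ⟨l0, m0, -⟩ := hK k hk
    refine ⟨mu k * mu k, fun y => ?_⟩
    obtain ⟨s, hs, rfl⟩ := D.a_surj y
    have h3 := (KK k hk s hs).2.1
    have h4 : Dd (κ k * a s) = mu k * ((mu k)⁻¹ * Dd (κ k * a s)) := by rw [mul_inv_cancel_left₀ m0]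
    rw [h4, h3]; ring)
  obtain ⟨s₁, hs₁, as₁⟩ := D.a_surj 1
  have hlam : ∀ k ∈ K, lam k = α (κ k) * mu k := by
    intro k hk
    have h3 := (KK k hk s₁ hs₁).1
    rw [as₁, mul_one, hα (κ k)] at h3
    have h4 : A 1 * (mu k * α (κ k)) = A 1 * lam k := by linear_combination h3
    rw [mul_comm (α (κ k))]
    exact (mul_left_cancel₀ hA1 h4).symm
  have hmu : ∀ k ∈ K, mu k * mu k = δ (κ k) := by
    intro k hk
    obtain ⟨l0, m0, -⟩ := hK k hk
    have h3 := (KK k hk s₁ hs₁).2.1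
    rw [as₁, mul_one, hδ (κ k)] at h3
    have h4 : Dd 1 * δ (κ k) = Dd 1 * (mu k * mu k) := by
      have h5 : Dd 1 * δ (κ k) = mu k * ((mu k)⁻¹ * (Dd 1 * δ (κ k))) := by rw [mul_inv_cancel_left₀ m0]
      rw [h5, h3]; ring
    exact (mul_left_cancel₀ hD1 h4).symm
  have hα' : ∀ x, A' x = A' 1 * α x := by
    intro x
    rcases eq_or_ne x 0 with rfl | hx
    · rw [map_zero, map_zero, mul_zero]
    · obtain ⟨k, hk, rfl⟩ := D.κ_surj x hx
      obtain ⟨l0, m0, -⟩ := hK k hk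
      have h3 := (KK k hk s₁ hs₁).2.2.2.1
      rw [as₁, mul_one] at h3
      have h4 : A' (κ k) = lam k * ((lam k)⁻¹ * A' (κ k)) := by rw [mul_inv_cancel_left₀ l0]
      rw [h4, h3, hlam k hk]
      field_simp
  have hB'θ : ∀ x, B' (x * θ x) = A' 1 * Dd 1 * (α x * δ x) := by
    intro x
    obtain ⟨s, hs, rfl⟩ := D.a_surj x
    rw [← (R2 s hs).1, hα', hδ (a s)]; ring
  have hB'1 : B' 1 = A' 1 * Dd 1 := by
    have := hB'θ 1
    rw [map_one θ, map_one α, map_one δ] at this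
    simpa only [mul_one] using this
  obtain ⟨β, hβ⟩ := aut_of B' (B'0 1 one_ne_zero) (fun x _ => by
    obtain ⟨p, hp⟩ := D.mulθ_surj x
    have hp : p * θ p = x := hp
    refine ⟨α p * δ p, fun y => ?_⟩
    obtain ⟨q, hq⟩ := D.mulθ_surj y
    have hq : q * θ q = y := hq
    have h3 : x * y = (p * q) * θ (p * q) := by rw [← hp, ← hq, map_mul]; ring
    rw [h3, hB'θ, ← hq, hB'θ, map_mul, map_mul]; ring)
  have hβθ : ∀ x, α x * δ x = β x * (θ.trans β) x := by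
    intro x
    have h3 := hB'θ x
    rw [hβ, hB'1, map_mul] at h3
    have h4 := mul_left_cancel₀ (mul_ne_zero hA'1 hD1) h3
    rw [← h4]; rfl
  have hBβ : ∀ y, B y = A 1 * Dd 1 * β y := by
    intro y
    obtain ⟨x, hx⟩ := D.mulθ_surj y
    have hx : x * θ x = y := hx
    obtain ⟨s, hs, rfl⟩ := D.a_surj x
    have h3 := R3 s hs
    rw [← hx, h3, hα (a s), hδ (a s), map_mul]
    have h4 := hβθ (a s)
    have h5 : (θ.trans β) (a s) = β (θ (a s)) := rfl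
    rw [h5] at h4
    linear_combination (A 1 * Dd 1) * h4
  have hpair := pair_lemma (θ_ne D (β := β)) hβθ
  have hne : α ≠ δ := by
    rintro h
    rcases hpair with ⟨h3, h4⟩ | ⟨h3, h4⟩
    · exact θ_ne D (β := β) (h3.symm.trans (h.trans h4))
    · exact θ_ne D (β := β) (h4.symm.trans (h.symm.trans h3))
  -- the function `L`
  obtain ⟨L, hL⟩ : ∃ L : X → F, ∀ s, L s = A' 1 * e s + A 1 * f s + A' 1 * A 1 * Dd 1 * (α (a s) * δ (a s)) :=
    ⟨_, fun s => rfl⟩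
  have L_mul : ∀ s ∈ S, ∀ r ∈ S, L (s * r) = L s + L r := by
    intro s hs r hr
    rw [hL, hL, hL, e_mul s hs r hr, f_mul s hs r hr, D.a_mul s hs r hr, hα' (a r), hα (a s), hδ (a r), hδ (a s), map_add α,
      map_add δ]
    have h3 := h2 (A' 1 * A 1 * Dd 1 * (α (a s) * δ (a r)))
    have h4 := h2 (A' 1 * A 1 * Dd 1 * (α (a r) * δ (a s)))
    linear_combination h3 + h4
  have L_E : ∀ t ∈ E, L t = 0 := by
    intro t ht
    rw [hL, eE t ht, fE t ht, ha0 t ht, map_zero, zero_mul, mul_zero, add_zero, hβ, hBβ, hB'1]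
    have h3 := h2 (A' 1 * (A 1 * Dd 1 * β (b t)))
    linear_combination h3
  have L_a : ∀ s ∈ S, ∀ r ∈ S, a s = a r → L s = L r := by
    intro s hs r hr har
    have hsr : s⁻¹ * r ∈ E := by
      rw [← D.a_zero _ (mul_mem (inv_mem hs) hr)]
      have h3 := D.a_mul s hs (s⁻¹ * r) (mul_mem (inv_mem hs) hr)
      rw [mul_inv_cancel_left, har] at h3
      exact left_eq_add.1 h3
    have h3 := L_mul s hs (s⁻¹ * r) (mul_mem (inv_mem hs) hr)
    rw [mul_inv_cancel_left, L_E _ hsr, add_zero] at h3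
    exact h3.symm
  have L_K : ∀ k ∈ K, ∀ s ∈ S, L (k * s * k⁻¹) = α (κ k) * δ (κ k) * L s := by
    intro k hk s hs
    obtain ⟨l0, m0, -⟩ := hK k hk
    obtain ⟨-, -, h3, -, h4⟩ := KK k hk s hs
    have h5 : e (k * s * k⁻¹) = lam k * mu k * e s := by
      have : e (k * s * k⁻¹) = mu k * ((mu k)⁻¹ * e (k * s * k⁻¹)) := by rw [mul_inv_cancel_left₀ m0]
      rw [this, h3]; ring
    have h6 : f (k * s * k⁻¹) = lam k * mu k * f s := by
      have : f (k * s * k⁻¹) = lam k * ((lam k)⁻¹ * f (k * s * k⁻¹)) := by rw [mul_inv_cancel_left₀ l0]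
      rw [this, h4]; ring
    have h7 : lam k * mu k = α (κ k) * δ (κ k) := by
      rw [hlam k hk, ← hmu k hk]; ring
    rw [hL, hL, h5, h6, h7, D.Ka k hk s hs, map_mul, map_mul]; ring
  have L0 : ∀ s ∈ S, L s = 0 := by
    by_contra hcon
    push Not at hcon
    obtain ⟨s1, hs1, hL1⟩ := hcon
    have hx : ∀ x, ∃ s ∈ S, a s = x * a s1 ∧ L s = α x * δ x * L s1 := by
      intro x
      rcases eq_or_ne x 0 with rfl | hx
      · refine ⟨1, one_mem _, ?_, ?_⟩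
        · rw [zero_mul]; exact ha0 1 (one_mem _)
        · rw [map_zero, zero_mul, zero_mul]; exact L_E 1 (one_mem _)
      · obtain ⟨k, hk, rfl⟩ := D.κ_surj x hx
        exact ⟨k * s1 * k⁻¹, D.KS k hk s1 hs1, D.Ka k hk s1 hs1, L_K k hk s1 hs1⟩
    apply hne
    apply eq_of_add
    intro x y
    obtain ⟨sx, hsx, ax, Lx⟩ := hx x
    obtain ⟨sy, hsy, ay, Ly⟩ := hx y
    obtain ⟨sz, hsz, az, Lz⟩ := hx (x + y)
    have h3 := L_a sz hsz (sx * sy) (mul_mem hsx hsy) (by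
      rw [D.a_mul sx hsx sy hsy, ax, ay, az]; ring)
    rw [L_mul sx hsx sy hsy, Lx, Ly, Lz] at h3
    apply mul_right_cancel₀ hL1
    rw [h3]; ring
  have hC : ∀ x, C (x * θ x) = A' 1 * A 1 * Dd 1 * (α x * α x * δ x) := by
    intro x
    obtain ⟨s, hs, rfl⟩ := D.a_surj x
    have h3 := L0 s hs
    rw [hL] at h3
    rw [(R2 s hs).2, hα' (a s), hα (a s)]
    have h4 := h2 (A' 1 * A 1 * Dd 1 * (α (a s) * α (a s) * δ (a s)))
    linear_combination α (a s) * h3 - h4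
  have hc0 : A' 1 * A 1 * Dd 1 ≠ 0 := mul_ne_zero (mul_ne_zero hA'1 hA1) hD1
  rcases hpair with ⟨h3, h4⟩ | ⟨h3, h4⟩
  swap
  · exfalso
    have hC1 : C 1 = A' 1 * A 1 * Dd 1 := by
      have := hC 1
      rw [map_one θ, map_one α, map_one δ] at this
      simpa only [mul_one] using this
    obtain ⟨γ, hγ⟩ := aut_of C (by rw [hC1]; exact hc0) (fun x _ => by
      obtain ⟨p, hp⟩ := D.mulθ_surj x
      have hp : p * θ p = x := hp
      refine ⟨α p * α p * δ p, fun y => ?_⟩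
      obtain ⟨q, hq⟩ := D.mulθ_surj y
      have hq : q * θ q = y := hq
      have h3 : x * y = (p * q) * θ (p * q) := by rw [← hp, ← hq, map_mul]; ring
      rw [h3, hC, ← hq, hC, map_mul, map_mul]; ring)
    have h5 : ∀ x, (RingEquiv.refl F) x * (θ.trans (θ.trans θ)) x =
        (γ.trans β.symm) x * (θ.trans (γ.trans β.symm)) x := by
      intro x
      have h6 := hC x
      rw [hγ, hC1, h3, h4] at h6
      have h7 := mul_left_cancel₀ hc0 h6
      change x * θ (θ (θ x)) = β.symm (γ x) * β.symm (γ (θ x))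
      rw [← map_mul, ← map_mul, h7, D.theta]
      have h8 : ((θ.trans β) x * (θ.trans β) x * β x) = β (x * (θ x * θ x)) := by
        change β (θ x) * β (θ x) * β x = _
        rw [map_mul, map_mul]; ring
      rw [h8, RingEquiv.symm_apply_apply]
    rcases pair_lemma (θ_ne D (β := γ.trans β.symm)) h5 with ⟨h6, h7⟩ | ⟨h6, h7⟩
    · apply pow_ne D.card (n := 1) (by norm_num) (by norm_num)
      intro y
      obtain ⟨x, rfl⟩ := θ.surjective y
      have h8 := RingEquiv.congr_fun h7 x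
      rw [← h6] at h8
      have h9 : θ (θ (θ x)) = θ x := h8
      rw [D.theta] at h9
      rw [pow_succ, pow_one]; exact h9
    · apply pow_ne D.card (n := 3) (by norm_num) (by norm_num)
      intro x
      have h8 := RingEquiv.congr_fun h6 x
      rw [← h7] at h8
      have h9 : x = θ (θ (θ (θ x))) := h8
      rw [D.theta, D.theta] at h9
      calc x ^ (3 + 1) = x * x * (x * x) := by ring
        _ = x := h9.symm
  subst h3
  have hδ' : ∀ x, δ x = α (θ x) := fun x => by rw [h4]; rfl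
  have hmu' : ∀ k ∈ K, mu k = α (θ.symm (κ k)) := by
    intro k hk
    have h5 : α (θ.symm (κ k)) * α (θ.symm (κ k)) = mu k * mu k := by
      rw [hmu k hk, hδ', ← map_mul, ← D.theta, RingEquiv.apply_symm_apply]
    have h6 : (mu k + α (θ.symm (κ k))) * (mu k + α (θ.symm (κ k))) = 0 := by
      have h7 := h2 (mu k * α (θ.symm (κ k)))
      have h8 := h2 (mu k * mu k)
      linear_combination h5 + h7 + h8
    have h7 := mul_self_eq_zero.1 h6
    linear_combination h7 - h2 (α (θ.symm (κ k)))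
  have hlam' : ∀ k ∈ K, lam k = α (κ k * θ.symm (κ k)) := by
    intro k hk
    rw [hlam k hk, hmu' k hk, map_mul]
  have hAA : A 1 * Dd 1 ≠ 0 := mul_ne_zero hA1 hD1
  refine ⟨α, u, (A 1)⁻¹ • v2, (A 1 * Dd 1)⁻¹ • v3, (A 1 * Dd 1 * A' 1)⁻¹ • v4, ?_⟩
  refine ⟨?_, ?_, hus, ?_, ?_, ?_, ?_, ?_, ?_, ?_, ?_, ?_, ?_⟩
  · intro v
    obtain ⟨x1, x2, x3, x4, rfl⟩ := hspan v
    refine ⟨x1, x2 * A 1, x3 * (A 1 * Dd 1), x4 * (A 1 * Dd 1 * A' 1), ?_⟩
    simp only [smul_smul]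
    have e1 : x2 * A 1 * (A 1)⁻¹ = x2 := mul_inv_cancel_right₀ hA1 x2
    have e2 : x3 * (A 1 * Dd 1) * (A 1 * Dd 1)⁻¹ = x3 := mul_inv_cancel_right₀ hAA x3
    have e3 : x4 * (A 1 * Dd 1 * A' 1) * (A 1 * Dd 1 * A' 1)⁻¹ = x4 :=
      mul_inv_cancel_right₀ (mul_ne_zero hAA hA'1) x4
    rw [e1, e2, e3]
  · intro x1 x2 x3 x4 h
    simp only [smul_smul] at h
    obtain ⟨h5, h6, h7, h8⟩ := hind _ _ _ _ h
    refine ⟨h5, ?_, ?_, ?_⟩
    · exact (mul_eq_zero.1 h6).resolve_right (inv_ne_zero hA1)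
    · exact (mul_eq_zero.1 h7).resolve_right (inv_ne_zero hAA)
    · exact (mul_eq_zero.1 h8).resolve_right (inv_ne_zero (mul_ne_zero hAA hA'1))
  · intro s hs
    rw [map_smul, hA s hs, hα (a s), smul_add, smul_smul, inv_mul_cancel_left₀ hA1]
  · intro s hs
    refine ⟨(A 1 * Dd 1)⁻¹ * e s, ?_⟩
    rw [map_smul, he s hs, hδ (a s), hδ' (a s)]
    simp only [smul_add, smul_smul]
    have e1 : (A 1 * Dd 1)⁻¹ * (Dd 1 * α (θ (a s))) = α (θ (a s)) * (A 1)⁻¹ := by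
      field_simp
    rw [e1]
  · intro s hs
    refine ⟨(A 1 * Dd 1 * A' 1)⁻¹ * f s * A 1, (A 1 * Dd 1 * A' 1)⁻¹ * g s, ?_⟩
    rw [map_smul, hfg s hs, hα' (a s)]
    simp only [smul_add, smul_smul]
    have e1 : (A 1 * Dd 1 * A' 1)⁻¹ * (A' 1 * α (a s)) = α (a s) * (A 1 * Dd 1)⁻¹ := by
      field_simp
    have e2 : (A 1 * Dd 1 * A' 1)⁻¹ * f s * A 1 * (A 1)⁻¹ = (A 1 * Dd 1 * A' 1)⁻¹ * f s :=
      mul_inv_cancel_right₀ hA1 _
    rw [e1, e2]
  · intro t ht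
    rw [map_smul, hB t ht, hBβ, smul_add, smul_smul, inv_mul_cancel_left₀ hAA]
  · intro t ht
    rw [map_smul, hB' t ht, hβ, hB'1]
    obtain ⟨x, hx⟩ := D.mulθ_surj (b t)
    have hx : x * θ x = b t := hx
    have h5 : C (b t) = A' 1 * A 1 * Dd 1 * α (θ (b t)) := by
      rw [← hx, hC, hδ', map_mul θ, D.theta, map_mul α, map_mul α]; ring
    rw [h5]
    simp only [smul_add, smul_smul]
    have e1 : (A 1 * Dd 1 * A' 1)⁻¹ * (A' 1 * Dd 1 * α (b t)) = α (b t) * (A 1)⁻¹ := by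
      field_simp
    have e2 : (A 1 * Dd 1 * A' 1)⁻¹ * (A' 1 * A 1 * Dd 1 * α (θ (b t))) = α (θ (b t)) := by
      field_simp
    rw [e1, e2]
  · intro k hk
    rw [(hK k hk).2.2.1, hlam' k hk]
  · intro k hk
    rw [map_smul, (hK k hk).2.2.2.1, hmu' k hk, smul_comm]
  · intro k hk
    rw [map_smul, (hK k hk).2.2.2.2.1, hmu' k hk, smul_comm]
  · intro k hk
    rw [map_smul, (hK k hk).2.2.2.2.2, hlam' k hk, smul_comm]
  · refine ⟨A 1 * Dd 1 * A' 1, mul_ne_zero hAA hA'1, ?_⟩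
    rw [← hv4, smul_smul, mul_inv_cancel₀ (mul_ne_zero hAA hA'1), one_smul]

/-- P4b with the conclusion of P4a as hypothesis -/
theorem coords_of (D : SzD θ S E K w s0 a b κ) {V : Type v} [AddCommGroup V] [Module F V]
    (ρ : Representation F X V) {u : V} (hus : ∀ s ∈ S, ρ s u = u)
    (h : ∃ (v2 v3 : V) (A A' Dd B B' C : F →+ F) (lam mu : X → F),
      (∀ v, ∃ x1 x2 x3 x4 : F, v = x1 • u + x2 • v2 + x3 • v3 + x4 • ρ w u) ∧
      (∀ x1 x2 x3 x4 : F, x1 • u + x2 • v2 + x3 • v3 + x4 • ρ w u = 0 → x1 = 0 ∧ x2 = 0 ∧ x3 = 0 ∧ x4 = 0) ∧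
      (∀ s ∈ S, ρ s v2 = v2 + A (a s) • u) ∧
      (∀ s ∈ S, ∃ e : F, ρ s v3 = v3 + Dd (a s) • v2 + e • u) ∧
      (∀ s ∈ S, ∃ f g : F, ρ s (ρ w u) = ρ w u + A' (a s) • v3 + f • v2 + g • u) ∧
      (∀ t ∈ E, ρ t v3 = v3 + B (b t) • u) ∧
      (∀ t ∈ E, ρ t (ρ w u) = ρ w u + B' (b t) • v2 + C (b t) • u) ∧
      (∀ x ≠ 0, A x ≠ 0) ∧ (∀ x ≠ 0, A' x ≠ 0) ∧ (∀ x ≠ 0, Dd x ≠ 0) ∧ (∀ x ≠ 0, B x ≠ 0) ∧ (∀ x ≠ 0, B' x ≠ 0) ∧
      (∀ k ∈ K, lam k ≠ 0 ∧ mu k ≠ 0 ∧ ρ k u = lam k • u ∧ ρ k v2 = mu k • v2 ∧ ρ k v3 = (mu k)⁻¹ • v3 ∧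
        ρ k (ρ w u) = (lam k)⁻¹ • ρ w u)) :
    ∃ (τ : F ≃+* F) (v1 v2' v3' v4 : V), Nat4 θ S E K w a b κ τ ρ v1 v2' v3' v4 := by
  obtain ⟨v2, v3, A, A', Dd, B, B', C, lam, mu, h1, h2, h3, h4, h5, h6, h7, h8, h9, h10, h11, h12, h13⟩ := h
  exact normalise D ρ hus h1 h2 h3 h4 h5 h6 h7 h8 h9 h10 h11 h12 h13

end Cfsg.Agent.H5.MtP4b
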